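import Cfsg.Agent.H1.CS
import Cfsg.Agent.H1.Super
import Cfsg.Agent.H1.SZ
import Cfsg.Agent.H9.Cop
import Cfsg.Agent.L.PG3
import Cfsg.Agent.S4167

/-! CZ.A: groups with square-free class sizes. -/

open Pointwise Cfsg Subgroup H9
open scoped commutatorElement

namespace CZ

variable {G : Type*} [Group G] [Finite G] {p : ℕ}

theorem comm_mem_zpowers (hp : p.Prime) {V : Subgroup G} {g v : G} (hc : ∀ v ∈ V, ∀ w ∈ V, v * ⁅g, w⁆ = ⁅g, w⁆ * v)
    (hi : (centralizer {g}).relIndex V ∣ p) (hv : v ∈ V) (h1 : v ∉ centralizer {g}) :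
    ⁅g, v⁆ ^ p = 1 ∧ ∀ w ∈ V, ⁅g, w⁆ ∈ zpowers ⁅g, v⁆ := by
  let φ : V →* G := MonoidHom.mk' (fun w => ⁅g, (w : G)⁆) fun a b => by
    calc ⁅g, ((a * b : V) : G)⁆ = ⁅g, (a : G)⁆ * ((a : G) * ⁅g, (b : G)⁆) * (a : G)⁻¹ := by
          simp [commutatorElement_def, mul_assoc]
      _ = _ := by rw [hc _ a.2 _ b.2]; group
  have hk : φ.ker = (centralizer {g}).subgroupOf V := by
    ext w
    rw [MonoidHom.mem_ker, mem_subgroupOf, mem_centralizer_singleton_iff, eq_comm (a := (w : G) * g)]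
    exact commutatorElement_eq_one_iff_mul_comm
  have hr : Nat.card φ.range ∣ p := by rwa [← index_ker, hk]
  have hz : zpowers ⁅g, v⁆ ≤ φ.range := (zpowers_le).2 ⟨⟨v, hv⟩, rfl⟩
  have h2 : Nat.card (zpowers ⁅g, v⁆) = p :=
    ((Nat.dvd_prime hp).1 ((card_dvd_of_le hz).trans hr)).resolve_left fun e => h1 (by
      rw [Nat.card_zpowers, orderOf_eq_one_iff, commutatorElement_eq_one_iff_mul_comm] at e
      exact mem_centralizer_singleton_iff.2 e.symm)
  refine ⟨by rw [← h2, Nat.card_zpowers, pow_orderOf_eq_one], fun w hw => ?_⟩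
  rw [eq_of_le_of_card_ge hz (h2 ▸ Nat.le_of_dvd hp.pos hr)]
  exact ⟨⟨w, hw⟩, rfl⟩

/-- rank-one dichotomy -/
theorem dicho (hp : p.Prime) {V S : Subgroup G}
    (hc : ∀ g ∈ S, ∀ v ∈ V, ∀ w ∈ V, v * ⁅g, w⁆ = ⁅g, w⁆ * v)
    (hi : ∀ g ∈ S, (centralizer {g}).relIndex V ∣ p) {g v : G} (hg : g ∈ S) (hv : v ∈ V)
    (h1 : v ∉ centralizer {g}) :
    (∀ k ∈ S, V ⊓ centralizer {g} ≤ centralizer {k}) ∨ ∀ k ∈ S, ∀ w ∈ V, ⁅k, w⁆ ∈ zpowers ⁅g, v⁆ := by
  have P : ∀ g ∈ S, ∀ h ∈ S, ¬ V ≤ centralizer {g} → ¬ V ⊓ centralizer {g} ≤ centralizer {h} →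
      ∃ u ∈ V, u ∉ centralizer {g} ∧ u ∉ centralizer {h} ∧ ⁅g, u⁆ = ⁅h, u⁆ := fun g hg h hh a1 a2 => by
    have a3 : ¬ V ⊓ centralizer {h⁻¹ * g} ≤ V ⊓ centralizer {g} ⊓ centralizer {h} := fun a3 => by
      have b1 := relIndex_dvd_of_le_left V a3
      rw [inf_relIndex_left V] at b1
      replace b1 := b1.trans (hi _ (S.mul_mem (S.inv_mem hh) hg))
      rw [← relIndex_mul_relIndex _ (V ⊓ centralizer {g}) V inf_le_left inf_le_left] at b1
      rcases (Nat.dvd_prime hp).1 (Dvd.dvd.trans (Dvd.intro _ rfl) b1) with e | e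
      · exact a2 ((relIndex_eq_one.1 e).trans inf_le_right)
      · rw [e] at b1
        exact a1 ((relIndex_eq_one.1 (Nat.eq_one_of_dvd_one
          ((Nat.mul_dvd_mul_iff_left hp.pos).1 (by simpa using b1)))).trans inf_le_right)
    obtain ⟨u, ⟨u1, u2⟩, u3⟩ := SetLike.not_le_iff_exists.1 a3
    have e : g * u * g⁻¹ = h * u * h⁻¹ := by
      have : u * (h⁻¹ * g) = h⁻¹ * g * u := mem_centralizer_singleton_iff.1 u2
      calc g * u * g⁻¹ = h * (h⁻¹ * g * u) * g⁻¹ := by group
        _ = _ := by rw [← this]; group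
    have k : u ∈ centralizer {g} ↔ u ∈ centralizer {h} := by
      simp only [mem_centralizer_singleton_iff]
      rw [eq_comm, ← mul_inv_eq_iff_eq_mul, e, mul_inv_eq_iff_eq_mul, eq_comm]
    exact ⟨u, u1, fun h' => u3 ⟨⟨u1, h'⟩, k.1 h'⟩, fun h' => u3 ⟨⟨u1, k.2 h'⟩, h'⟩, by
      rw [commutatorElement_def, commutatorElement_def, e]⟩
  have Q : ∀ g ∈ S, ∀ h ∈ S, ¬ V ⊓ centralizer {g} ≤ centralizer {h} → ∀ v ∈ V, v ∉ centralizer {g} →
      ∀ w ∈ V, w ∉ centralizer {h} → zpowers ⁅g, v⁆ = zpowers ⁅h, w⁆ := fun g hg h hh a v v1 v2 w w1 w2 => by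
    obtain ⟨u, u1, u2, u3, e⟩ := P g hg h hh (fun h' => v2 (h' v1)) a
    have k : ∀ g ∈ S, ∀ v ∈ V, v ∉ centralizer {g} → u ∉ centralizer {g} →
        zpowers ⁅g, v⁆ = zpowers ⁅g, u⁆ := fun g hg v v1 v2 u2 => le_antisymm
      ((zpowers_le).2 ((comm_mem_zpowers hp (hc g hg) (hi g hg) u1 u2).2 v v1))
      ((zpowers_le).2 ((comm_mem_zpowers hp (hc g hg) (hi g hg) v1 v2).2 u u1))
    rw [k g hg v v1 v2 u2, k h hh w w1 w2 u3, e]
  by_cases hA : ∀ k ∈ S, V ⊓ centralizer {g} ≤ centralizer {k}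
  · exact Or.inl hA
  push Not at hA
  obtain ⟨h, hh, a⟩ := hA
  refine Or.inr fun k hk w hw => ?_
  by_cases e : w ∈ centralizer {k}
  · rw [commutatorElement_eq_one_iff_mul_comm.2 (mem_centralizer_singleton_iff.1 e).symm]
    exact one_mem _
  by_cases b : V ⊓ centralizer {g} ≤ centralizer {k}
  · obtain ⟨u, u1, u2⟩ := SetLike.not_le_iff_exists.1 a
    rw [Q g hg h hh a v hv h1 u u1.1 u2,
      ← Q k hk h hh (fun h' => a ((le_inf inf_le_left b).trans h')) w hw e u u1.1 u2]
    exact mem_zpowers _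
  · rw [Q g hg k hk b v hv h1 w hw e]; exact mem_zpowers _

/-- square-free class sizes -/
def SF (G : Type*) [Group G] : Prop := ∀ x : G, Squarefree (centralizer ({x} : Set G)).index

theorem SF.quot (h : SF G) (N : Subgroup G) [N.Normal] : SF (G ⧸ N) := fun x => by
  obtain ⟨g, rfl⟩ := QuotientGroup.mk_surjective x
  exact (h g).squarefree_of_dvd (H1.index_centralizer_mk_dvd N g)

omit [Finite G] in
theorem dvd_of_sqfree [hp : Fact p.Prime] {n k : ℕ} (h : Squarefree n) (h' : n ∣ p ^ k) : n ∣ p := by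
  obtain ⟨j, -, rfl⟩ := (Nat.dvd_prime_pow hp.out).1 h'
  rcases j with _ | _ | j
  · simp
  · simp
  · exact absurd (h p ⟨p ^ j, by ring⟩) hp.out.prime.not_unit

theorem SF.rel [hp : Fact p.Prime] (h : SF G) {V : Subgroup G} [V.Normal] (hV : IsPGroup p V) (g : G) :
    (centralizer {g}).relIndex V ∣ p := by
  obtain ⟨k, hk⟩ := IsPGroup.iff_card.1 hV
  exact dvd_of_sqfree ((h g).squarefree_of_dvd (H1.relIndex_dvd_index_of_normal' V _))
    (hk ▸ relIndex_dvd_card _ _)

omit [Finite G] in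
theorem hc_of_comm {V : Subgroup G} [hn : V.Normal] (hV : IsMulCommutative V) (g : G) :
    ∀ v ∈ V, ∀ w ∈ V, v * ⁅g, w⁆ = ⁅g, w⁆ * v := fun v hv w hw =>
  comm_of_mem_centralizer (le_centralizer V (V.mul_mem (hn.conj_mem w hw g) (V.inv_mem hw))) hv

theorem SF.super_aux.{u} (n : ℕ) : ∀ (G : Type u) [Group G] [Finite G], Nat.card G = n → SF G →
    IsSupersolvable G := by
  induction n using Nat.strong_induction_on with
  | _ n ih =>
  intro G _ _ hn h
  haveI : Group.IsSolvable G := Cfsg.Agent.S4167.result fun x hx =>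
    Nat.prime_two.prime.not_unit (h x 2 hx)
  by_cases h0 : (⊤ : Subgroup G) = ⊥
  · haveI : Subsingleton G := ⟨fun a b => by
      rw [mem_bot.1 (h0.le (mem_top a)), mem_bot.1 (h0.le (mem_top b))]⟩
    exact H1.super_of_subsingleton
  obtain ⟨V, p, hp, vn, v1, -, v2, -, v3, v4⟩ := H1.exists_minimal_normal_elementary ⊤ inferInstance h0
  haveI := Fact.mk hp
  refine H1.super_of_cyclic_normal V ?_ (ih _ ?_ _ rfl (h.quot V))
  swap
  · rw [← hn, ← V.card_mul_index]
    exact lt_mul_of_one_lt_left Nat.card_pos ((one_lt_card_iff_ne_bot V).2 v1)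
  have cyc : ∀ b ∈ V, b ≠ 1 → (∀ k : G, k * b * k⁻¹ ∈ zpowers b) → IsCyclic V := fun b hb b1 b2 => by
    have : (zpowers b).Normal := ⟨by rintro _ ⟨j, rfl⟩ k; rw [← conj_zpow]; exact zpow_mem (b2 k) j⟩
    rw [← (v4 _ this ((zpowers_le).2 hb)).resolve_left (zpowers_ne_bot.2 b1)]
    infer_instance
  by_cases hz : ∀ g : G, V ≤ centralizer {g}
  · obtain ⟨b, hb, b1⟩ := H1.exists_mem_ne_one v1
    exact cyc b hb b1 fun k => by
      rw [← mem_centralizer_singleton_iff.1 (hz k hb), mul_inv_cancel_right]; exact mem_zpowers b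
  push Not at hz
  obtain ⟨g, hg⟩ := hz
  obtain ⟨v, hv, h1⟩ := SetLike.not_le_iff_exists.1 hg
  rcases dicho hp (S := ⊤) (fun g _ => hc_of_comm v2 g) (fun g _ => h.rel v3 g) (mem_top g) hv h1 with a | a
  · have : (V ⊓ centralizer {g}).Normal := ⟨fun x hx k => by
      rw [← mem_centralizer_singleton_iff.1 (a k trivial hx), mul_inv_cancel_right]; exact hx⟩
    have e := (v4 _ this inf_le_left).resolve_right fun e => hg (e ▸ inf_le_right)
    have := h.rel v3 g
    rw [← inf_relIndex_left, e, relIndex_bot_left] at this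
    exact isCyclic_of_card_dvd_prime this
  · have hb : ⁅g, v⁆ ∈ V := V.mul_mem (vn.conj_mem v hv g) (V.inv_mem hv)
    refine cyc _ hb (fun e => h1 (mem_centralizer_singleton_iff.2
      (commutatorElement_eq_one_iff_mul_comm.1 e).symm)) fun k => ?_
    have := mul_mem (a k trivial _ hb) (mem_zpowers _)
    rwa [commutatorElement_def k, inv_mul_cancel_right] at this

theorem SF.super (h : SF G) : IsSupersolvable G := SF.super_aux _ G rfl h

theorem card_dvd_of_le_zpowers {D : Subgroup G} {b : G} (h : D ≤ zpowers b) (hb : b ^ p = 1) :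
    Nat.card D ∣ p := (card_dvd_of_le h).trans (by rw [Nat.card_zpowers]; exact orderOf_dvd_of_pow_eq_one hb)

theorem SF.card_comm [hp : Fact p.Prime] (h : SF G) (hD : IsPGroup p (commutator G)) :
    Nat.card (commutator G) ∣ p := by
  obtain ⟨P, hP, hDP⟩ := exists_syl_ge hD (le_top (a := commutator G))
  haveI pn : P.Normal := ⟨fun x hx g => by
    simpa [commutatorElement_def] using P.mul_mem (hDP (commutator_mem_commutator (mem_top g) (mem_top x))) hx⟩
  obtain ⟨H, -, h2, h3, h4⟩ := H1.exists_complement_rel (le_top (a := P)) le_normalizer_of_normal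
    (H1.isPGroup_coprime' hP.isP hP.not_dvd)
  have hH : ⁅H, H⁆ = ⊥ := eq_bot_iff.2 (h2 ▸ le_inf (commutator_le_of_le le_rfl le_rfl)
    ((commutator_mono le_top le_top).trans hDP))
  have hcop : (Nat.card H).Coprime p := h4 ▸ ((Nat.Prime.coprime_iff_not_dvd hp.out).2 hP.not_dvd).symm
  have fin : ∀ B : Subgroup G, B.Normal → ⁅H, P⁆ ≤ B → ⁅P, P⁆ ≤ B → commutator G ≤ B := fun B _ b1 b2 => by
    have k : ∀ X : Subgroup G, ⁅H, X⁆ ≤ B → ⁅P, X⁆ ≤ B → ⁅⊤, X⁆ ≤ B := fun X a b =>
      h3 ▸ commutator_sup_le le_normalizer_of_normal le_normalizer_of_normal a b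
    exact k ⊤ (by rw [commutator_comm]; exact k H (hH ▸ bot_le) (by rwa [commutator_comm]))
      (by rw [commutator_comm]; exact k P b1 b2)
  have pr : ∀ g : G, ¬ P ≤ centralizer {g} → ((P ⊓ centralizer {g}).relIndex P).Prime := fun g hg => by
    rw [inf_relIndex_left, ((Nat.dvd_prime hp.out).1 (h.rel hP.isP g)).resolve_left
      fun e => hg (relIndex_eq_one.1 e)]
    exact hp.out
  by_cases hc : P ≤ centralizer (H : Set G)
  · have b1 : ⁅H, P⁆ = ⊥ := by rw [commutator_comm]; exact commutator_eq_bot_iff_le_centralizer.2 hc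
    by_cases ha : ∀ g ∈ P, P ≤ centralizer {g}
    · rw [eq_bot_iff.2 (fin ⊥ inferInstance b1.le (commutator_le.2 fun a ha' b hb => mem_bot.2
        (commutatorElement_eq_one_iff_mul_comm.2 (mem_centralizer_singleton_iff.1 (ha b hb ha')))))]
      simp
    push Not at ha
    obtain ⟨g, hg, a⟩ := ha
    obtain ⟨v, hv, h1⟩ := SetLike.not_le_iff_exists.1 a
    have c2 : ∀ g ∈ P, ∀ v ∈ P, ∀ w ∈ P, v * ⁅g, w⁆ = ⁅g, w⁆ * v := fun g hg v hv w hw => by
      by_cases e : P ≤ centralizer {v}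
      · exact (mem_centralizer_singleton_iff.1 (e (P.mul_mem (pn.conj_mem w hw g) (P.inv_mem hw)))).symm
      · exact (mem_centralizer_singleton_iff.1 (L.commutator_le_of_relIndex_prime hP.isP inf_le_left le_rfl
          (L.le_normalizer_of_relIndex_prime hP.isP inf_le_left (pr v e)) le_normalizer (pr v e)
          (commutator_mem_commutator hg hw)).2).symm
    rcases dicho hp.out c2 (fun g _ => h.rel hP.isP g) hg hv h1 with b | b
    · haveI := L.isMulCommutative_of_relIndex_prime (pr g a) inf_le_left fun x hx =>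
        mem_centralizer_iff.2 fun k hk => (mem_centralizer_singleton_iff.1 (b k hk hx)).symm
      exact absurd (mem_centralizer_singleton_iff.2 (comm_of_mem_centralizer (le_centralizer P hg) hv)) h1
    · exact card_dvd_of_le_zpowers ((fin ⁅P, P⁆ inferInstance (b1 ▸ bot_le) le_rfl).trans
        (commutator_le.2 b)) (comm_mem_zpowers hp.out (c2 g hg) (h.rel hP.isP g) hv h1).1
  obtain ⟨g, hg, a⟩ : ∃ g ∈ H, ¬ P ≤ centralizer {g} := by
    by_contra hn
    push Not at hn
    exact hc fun x hx => mem_centralizer_iff.2 fun g hg => (mem_centralizer_singleton_iff.1 (hn g hg hx)).symm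
  have cp : CopA (zpowers g) P := copA_of_p' hP.isP (cop_of_le hcop ((zpowers_le).2 hg))
  set A := P ⊓ centralizer {g} with hA
  have a1 : ⁅A, zpowers g⁆ = ⊥ := commutator_eq_bot_iff_le_centralizer.2 (centralizer_zpowers g ▸ inf_le_right)
  have a2 : ⁅⁅zpowers g, P⁆, A⁆ ≤ ⊥ := three_subgroups le_normalizer_of_normal le_normalizer_of_normal
    le_normalizer_of_normal (a1 ▸ commutator_mono (by
      rw [commutator_comm]
      exact commutator_le_left' (L.le_normalizer_of_relIndex_prime hP.isP inf_le_left (pr g a))) le_rfl)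
    (by rw [a1]; simp)
  have a3 : A ≤ centralizer (P : Set G) := by
    have k := cop_commutator_sup le_normalizer_of_normal cp
    rw [centralizer_zpowers, ← hA, commutator_comm] at k
    have k1 := le_centralizer_iff.1 (commutator_eq_bot_iff_le_centralizer.1 (eq_bot_iff.2 a2))
    rw [← k, H9.centralizer_sup]
    refine le_inf k1 (le_centralizer_iff.1 fun x hx => mem_centralizer_iff.2 fun y hy => ?_)
    have c1 : Commute y g := mem_centralizer_singleton_iff.1 hy.2
    obtain ⟨j, hj⟩ := H1.exists_orderOf_eq_pow hP.isP hy.1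
    have c2 := H1.centralizer_mul_of_coprime c1 (by
      rw [hj]; exact (hcop.coprime_dvd_left (orderOf_dvd_natCard H hg)).symm.pow_left j)
    have c3 := h.rel hP.isP (y * g)
    rw [c2, ← inf_relIndex_left, ← relIndex_mul_relIndex _ A P (inf_le_inf_left _ inf_le_right) inf_le_left,
      ((Nat.dvd_prime hp.out).1 (show A.relIndex P ∣ p by
        rw [hA, inf_relIndex_left]; exact h.rel hP.isP g)).resolve_left (pr g a).ne_one] at c3
    have c4 := relIndex_eq_one.1 (Nat.eq_one_of_dvd_one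
      ((Nat.mul_dvd_mul_iff_right hp.out.pos).1 (by simpa using c3)))
    exact (mem_centralizer_singleton_iff.1 (c4 hx).2.1).symm
  haveI pa := L.isMulCommutative_of_relIndex_prime (pr g a) inf_le_left a3
  have pp : ⁅P, P⁆ = ⊥ := commutator_eq_bot_iff_le_centralizer.2 (le_centralizer P)
  obtain ⟨v, hv, h1⟩ := SetLike.not_le_iff_exists.1 a
  obtain ⟨m1, m2⟩ := comm_mem_zpowers hp.out (hc_of_comm pa g) (h.rel hP.isP g) hv h1
  have hb : ⁅g, v⁆ ∈ P := P.mul_mem (pn.conj_mem v hv g) (P.inv_mem hv)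
  have nb : (zpowers ⁅g, v⁆).Normal := normalizer_eq_top_iff.1 (eq_top_iff.2 (h3 ▸ sup_le
    (le_normalizer_of_cj_le fun k hk => by
      rw [cj_zpowers, conjugate_commutatorElement, zpowers_le,
        show k * g * k⁻¹ = g by rw [commutatorElement_eq_one_iff_mul_comm.1
          (mem_bot.1 (hH.le (commutator_mem_commutator hk hg))), mul_inv_cancel_right]]
      exact m2 _ (pn.conj_mem v hv k))
    ((le_centralizer_iff.1 (((zpowers_le).2 hb).trans (le_centralizer P))).trans
      (centralizer_le_normalizer' _))))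
  refine card_dvd_of_le_zpowers (fin _ nb (commutator_le.2 ?_) (pp ▸ bot_le)) m1
  rcases dicho hp.out (S := H) (fun g _ => hc_of_comm pa g) (fun g _ => h.rel hP.isP g) hg hv h1 with b | b
  swap
  · exact b
  have b1 : ⁅g, v⁆ ∉ centralizer {g} := fun e => a (centralizer_zpowers g ▸
    cop_le_centralizer (D := zpowers ⁅g, v⁆) le_normalizer_of_normal cp (by
      rw [commutator_comm]
      nth_rewrite 1 [zpowers_eq_closure]
      exact L.commutator_closure_le (fun s _ => le_normalizer_of_normal (mem_top s))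
        (by rintro _ rfl; exact m2)) (by rw [centralizer_zpowers]; exact (zpowers_le).2 e))
  intro k hk w hw
  rw [← L.sup_zpowers_eq_of_relIndex_prime (pr g a) inf_le_left hb fun e => b1 e.2] at hw
  obtain ⟨x, hx, y, hy, rfl⟩ := (mem_sup_of_le_normalizer le_normalizer_of_normal).1 hw
  have : x * k = k * x := mem_centralizer_singleton_iff.1 (b k hk hx)
  have e : ⁅k, x * y⁆ = x * ((k * y * k⁻¹) * y⁻¹) * x⁻¹ := by
    calc ⁅k, x * y⁆ = (k * x) * y * k⁻¹ * y⁻¹ * x⁻¹ := by simp [commutatorElement_def, mul_assoc]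
      _ = _ := by rw [← this]; group
  rw [e]
  exact nb.conj_mem _ (mul_mem (nb.conj_mem _ hy k) (inv_mem hy)) x

theorem SF.sq_comm (h : SF G) : Squarefree (Nat.card (commutator G)) := by
  refine Nat.squarefree_iff_prime_squarefree.2 fun p hp hd => ?_
  haveI := Fact.mk hp
  set D := commutator G with hD
  have hn := H1.super_commutator_nilpotent h.super
  haveI : (Op' p D).Normal := normalizer_eq_top_iff.1 (eq_top_iff.2 (normalizer_Op' le_normalizer_of_normal))
  set f := QuotientGroup.mk' (Op' p D) with hf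
  have e : commutator (G ⧸ Op' p D) = D.map f := by
    have := map_commutator_eq G f
    rw [MonoidHom.range_eq_top.2 (QuotientGroup.mk'_surjective _)] at this
    exact this.symm
  have e2 : D.map f = (Op p D).map f := by
    have := congrArg (Subgroup.map f) (nilpotent_eq_Op_sup_Op' (p := p) (H := D) hn)
    rw [Subgroup.map_sup, (Subgroup.map_eq_bot_iff (Op' p D)).2 (QuotientGroup.ker_mk' _).ge, sup_bot_eq] at this
    exact this.symm
  have h1 := (h.quot (Op' p D)).card_comm (p := p) (by rw [e, e2]; exact (Op_p p D).map f)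
  rw [card_eq_card_map_mul f D, ← e] at hd
  have h2 : (Nat.card (f.ker ⊓ D : Subgroup G)).Coprime p :=
    cop_of_le (Op'_cop p D) (inf_le_left.trans (QuotientGroup.ker_mk' _).le)
  have := ((h2.symm.mul_left h2.symm).dvd_of_dvd_mul_right hd).trans h1
  exact hp.not_dvd_one ((Nat.mul_dvd_mul_iff_left hp.pos).1 (by simpa using this))

theorem SF.cyc_comm (h : SF G) : IsCyclic (commutator G) := by
  haveI := H1.super_commutator_nilpotent h.super
  haveI := IsZGroup.of_squarefree h.sq_comm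
  infer_instance

theorem SF.fit_eq (h : SF G) : fittingSubgroup G = centralizer (commutator G : Set G) := by
  haveI := h.cyc_comm
  refine le_antisymm (le_centralizer_iff.1 (le_of_forall_syl fun q hq => ⟨_,
    syl_Op_of_nilpotent (H1.super_commutator_nilpotent h.super), le_centralizer_iff.1 ?_⟩))
    (H1.le_fitting (H1.isNilpotent_of_commutator_le_centralizer
      ((commutator_mono le_top le_top).trans (le_centralizer_iff.1 le_rfl))))
  haveI : (Op q (commutator G)).Normal :=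
    normalizer_eq_top_iff.1 (eq_top_iff.2 (normalizer_Op le_normalizer_of_normal))
  refine H1.le_centralizer_minimal_normal H1.fitting_isNilpotent fun K _ hK => ?_
  obtain ⟨k, hk⟩ := IsPGroup.iff_card.1 (Op_p q (commutator G))
  have h1 := dvd_of_sqfree (h.sq_comm.squarefree_of_dvd (card_dvd_of_le (Op_le q _))) hk.dvd
  rcases (Nat.dvd_prime hq.out).1 ((card_dvd_of_le hK).trans h1) with e | e
  · exact Or.inl (card_eq_one.1 e)
  · exact Or.inr (eq_of_le_of_card_ge hK ((Nat.le_of_dvd hq.out.pos h1).trans e.ge))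

end CZ
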