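import Cfsg.Agent.H1.Fitting

/-! Orders of nilpotent permutation groups. -/

set_option autoImplicit false

namespace CZ.Nil

open Subgroup Nat

/-- the largest order of a nilpotent subgroup of `Sym(n)` -/
def g (n : ℕ) : ℕ := max 1 (n % 4) * 8 ^ (n / 4) * 2 ^ padicValNat 2 (n / 4)!

theorem v_half (n : ℕ) : padicValNat 2 n ! = padicValNat 2 (n / 2)! + n / 2 := by
  conv_lhs => rw [← Nat.div_add_mod n 2, padicValNat_factorial_mul_add _ (Nat.mod_lt n two_pos), padicValNat_factorial_mul]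

theorem v_eq (n : ℕ) : padicValNat 2 n ! = 3 * (n / 4) + n % 4 / 2 + padicValNat 2 (n / 4)! := by
  rw [v_half n, v_half (n / 2), show n / 2 / 2 = n / 4 by omega]
  omega

theorem v_add {a b c : ℕ} (h : a + b ≤ c) : padicValNat 2 a ! + padicValNat 2 b ! ≤ padicValNat 2 c ! := by
  rw [← padicValNat_dvd_iff_le (factorial_ne_zero c), pow_add]
  exact (mul_dvd_mul pow_padicValNat_dvd pow_padicValNat_dvd).trans
    ((factorial_mul_factorial_dvd_factorial_add a b).trans (factorial_dvd_factorial h))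

theorem g_eq {n : ℕ} (h : n % 4 ≠ 3) : g n = 2 ^ padicValNat 2 n ! := by
  rw [g, v_eq n, pow_add, pow_add, pow_mul]
  have : n % 4 = 0 ∨ n % 4 = 1 ∨ n % 4 = 2 := by omega
  rcases this with e | e | e <;> rw [e] <;> norm_num <;> ring

theorem g_eq3 {n : ℕ} (h : n % 4 = 3) : g n = 3 * 2 ^ padicValNat 2 (n - 3)! := by
  rw [g, v_eq (n - 3), pow_add, pow_add, pow_mul, h, show (n - 3) / 4 = n / 4 by omega, show (n - 3) % 4 = 0 by omega]
  norm_num; ring

theorem two_le_g (n : ℕ) : 2 ^ padicValNat 2 n ! ≤ g n := by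
  by_cases h : n % 4 = 3
  · rw [g, v_eq n, pow_add, pow_add, pow_mul, h]
    exact Nat.mul_le_mul_right _ (by norm_num; omega)
  · rw [g_eq h]

theorem g_add (a b : ℕ) : g a * g b ≤ g (a + b) := by
  have h1 : 2 ^ padicValNat 2 (a / 4)! * 2 ^ padicValNat 2 (b / 4)! ≤ 2 ^ padicValNat 2 ((a + b) / 4)! := by
    rw [← pow_add]; exact Nat.pow_le_pow_right two_pos (v_add (by omega))
  have h2 : max 1 (a % 4) * 8 ^ (a / 4) * (max 1 (b % 4) * 8 ^ (b / 4)) ≤ max 1 ((a + b) % 4) * 8 ^ ((a + b) / 4) := by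
    rw [mul_mul_mul_comm, ← pow_add]
    by_cases h : a % 4 + b % 4 < 4
    · rw [show (a + b) / 4 = a / 4 + b / 4 by omega, show (a + b) % 4 = a % 4 + b % 4 by omega]
      refine Nat.mul_le_mul_right _ ?_
      generalize a % 4 = r at *
      generalize b % 4 = s at *
      have : r < 4 := by omega
      have : s < 4 := by omega
      interval_cases r <;> interval_cases s <;> simp_all
    · rw [show (a + b) / 4 = a / 4 + b / 4 + 1 by omega, show (a + b) % 4 = a % 4 + b % 4 - 4 by omega, pow_succ',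
        ← mul_assoc]
      refine Nat.mul_le_mul_right _ ?_
      have : a % 4 < 4 := by omega
      have : b % 4 < 4 := by omega
      generalize a % 4 = r at *
      generalize b % 4 = s at *
      interval_cases r <;> interval_cases s <;> simp_all
  calc g a * g b = max 1 (a % 4) * 8 ^ (a / 4) * (max 1 (b % 4) * 8 ^ (b / 4)) *
        (2 ^ padicValNat 2 (a / 4)! * 2 ^ padicValNat 2 (b / 4)!) := by rw [g, g]; ring
    _ ≤ _ := Nat.mul_le_mul h2 h1

theorem g_pos (n : ℕ) : 0 < g n := by unfold g; positivity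

theorem g_mono {a b : ℕ} (h : a ≤ b) : g a ≤ g b := by
  obtain ⟨c, rfl⟩ := Nat.exists_eq_add_of_le h
  exact (Nat.le_mul_of_pos_right _ (g_pos c)).trans (g_add a c)

theorem g_pow (a k : ℕ) : g a ^ k ≤ g (k * a) := by
  induction k with
  | zero => rw [pow_zero]; exact g_pos _
  | succ k ih => rw [pow_succ, add_mul, one_mul]; exact (Nat.mul_le_mul_right _ ih).trans (g_add _ _)

theorem g_low (n : ℕ) : max 1 (n % 4) * 8 ^ (n / 4) * 2 ^ (n / 8) ≤ g n := by
  refine Nat.mul_le_mul_left _ (Nat.pow_le_pow_right two_pos ?_)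
  rw [v_half]; omega

theorem g_three (n : ℕ) (h : 9 ≤ n) : 3 ^ ((n - 1) / 2) ≤ g n := by
  induction n using Nat.strong_induction_on with
  | _ n ih =>
    by_cases h1 : n ≤ 16
    · refine le_trans ?_ (g_low n)
      interval_cases n <;> norm_num
    · have h2 := ih (n - 8) (by omega) (by omega)
      have h3 := g_add (n - 8) 8
      have h4 := g_low 8
      rw [show n - 8 + 8 = n by omega] at h3
      rw [show (n - 1) / 2 = (n - 8 - 1) / 2 + 4 by omega, pow_add]
      exact (Nat.mul_le_mul h2 (le_trans (by norm_num) h4)).trans h3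

theorem g_succ (m : ℕ) (h : 4 ≤ m) : m + 1 ≤ g m := by
  induction m using Nat.strong_induction_on with
  | _ m ih =>
    by_cases h1 : m ≤ 7
    · refine le_trans ?_ (g_low m)
      interval_cases m <;> norm_num
    · have h2 := ih (m - 4) (by omega) (by omega)
      have h3 := g_add (m - 4) 4
      have h4 : 8 ≤ g 4 := le_trans (by norm_num) (g_low 4)
      rw [show m - 4 + 4 = m by omega] at h3
      have := (Nat.mul_le_mul h2 h4).trans h3
      omega

theorem v3 {m : ℕ} (h : m < 3) : padicValNat 3 m ! = 0 := by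
  interval_cases m <;> exact padicValNat.eq_zero_of_not_dvd (by decide)

theorem p_le_g {p : ℕ} [hp : Fact p.Prime] (n : ℕ) : p ^ padicValNat p n ! ≤ g n := by
  by_cases h2 : p = 2
  · subst h2; exact two_le_g n
  rcases Nat.eq_zero_or_pos n with rfl | hn
  · rw [factorial_zero, padicValNat_one_right, pow_zero]; exact g_pos 0
  have h1 := sub_one_mul_padicValNat_factorial_lt_of_ne_zero p hn.ne'
  by_cases h3 : p = 3
  · subst h3
    by_cases h9 : 9 ≤ n
    · exact (Nat.pow_le_pow_right (by norm_num) (by omega)).trans (g_three n h9)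
    · have h4 : padicValNat 3 n ! = n / 3 + padicValNat 3 (n / 3)! := by
        conv_lhs => rw [← Nat.div_add_mod n 3, padicValNat_factorial_mul_add _ (Nat.mod_lt n three_pos),
          padicValNat_factorial_mul, add_comm]
      rw [h4, v3 (by omega)]
      refine le_trans ?_ (g_low n)
      have : n < 9 := by omega
      interval_cases n <;> norm_num
  · have h5 := hp.out.five_le_of_ne_two_of_ne_three h2 h3
    have h6 := g_succ (p - 1) (by omega)
    rw [show p - 1 + 1 = p by omega] at h6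
    exact (Nat.pow_le_pow_left h6 _).trans ((g_pow _ _).trans (g_mono (by rw [mul_comm]; exact h1.le)))

theorem card_sylow {p : ℕ} [Fact p.Prime] {Ω : Type*} [Finite Ω] (P : Sylow p (Equiv.Perm Ω)) :
    Nat.card P = p ^ padicValNat p (Nat.card Ω)! := by
  rw [Sylow.card_eq_multiplicity, Nat.card_perm, Nat.factorization_def _ Fact.out]

theorem bound (n : ℕ) : ∀ (G : Type) [Group G] [Finite G] [Group.IsNilpotent G] (Ω : Type) [Finite Ω] [MulAction G Ω],
    Nat.card Ω = n → (∀ x : G, (∀ ω : Ω, x • ω = ω) → x = 1) → Nat.card G ≤ g n := by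
  induction n using Nat.strong_induction_on with
  | _ n ih =>
  intro G _ _ _ Ω _ _ hn hf
  have hi : Function.Injective (MulAction.toPermHom G Ω) :=
    (injective_iff_map_eq_one _).2 fun x hx => hf x fun ω => congrArg (fun σ : Equiv.Perm Ω => σ ω) hx
  have ih' : ∀ (X : Type) [Finite X] [MulAction G X], Nat.card X < n →
      Nat.card (MulAction.toPermHom G X).range ≤ g (Nat.card X) := fun X _ _ hX => by
    haveI := nilpotent_of_surjective _ (MulAction.toPermHom G X).rangeRestrict_surjective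
    exact ih _ hX _ X rfl fun x hx => Subtype.ext (Equiv.ext hx)
  rcases subsingleton_or_nontrivial G with hG | hG
  · rw [Nat.card_of_subsingleton (1 : G)]; exact g_pos n
  obtain ⟨x0, hx0⟩ := exists_ne (1 : G)
  obtain ⟨ω, hω⟩ : ∃ ω : Ω, x0 • ω ≠ ω := by by_contra! h; exact hx0 (hf x0 h)
  by_cases htr : ∀ y : Ω, ∃ x : G, x • ω = y
  swap
  · push Not at htr
    obtain ⟨y, hy⟩ := htr
    let O : SubMulAction G Ω := ⟨MulAction.orbit G ω, fun c _ h => MulAction.mem_orbit_of_mem_orbit c h⟩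
    have hc : Nat.card O + Nat.card ↥(Oᶜ) = n := by
      rw [← hn]; exact Set.ncard_add_ncard_compl (O : Set Ω)
    haveI : Nonempty O := ⟨⟨ω, MulAction.mem_orbit_self ω⟩⟩
    haveI : Nonempty ↥(Oᶜ) := ⟨⟨y, fun ⟨x, h⟩ => hy x h⟩⟩
    have h1 : 0 < Nat.card O := Nat.card_pos
    have h2 : 0 < Nat.card ↥(Oᶜ) := Nat.card_pos
    have h3 := Nat.card_le_card_of_injective
      ((MulAction.toPermHom G O).rangeRestrict.prod (MulAction.toPermHom G ↥(Oᶜ)).rangeRestrict)
      ((injective_iff_map_eq_one _).2 fun x hx => hf x fun a => by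
        by_cases ha : a ∈ O
        · exact congrArg (fun σ => ((σ.1.1 ⟨a, ha⟩ : O) : Ω)) hx
        · exact congrArg (fun σ => ((σ.2.1 ⟨a, ha⟩ : ↥(Oᶜ)) : Ω)) hx)
    rw [Nat.card_prod] at h3
    exact h3.trans ((Nat.mul_le_mul (ih' O (by omega)) (ih' _ (by omega))).trans (hc ▸ g_add _ _))
  obtain ⟨p, hp, hpd⟩ := Nat.exists_prime_and_dvd (Finite.one_lt_card (α := G)).ne'
  haveI := Fact.mk hp
  obtain ⟨P⟩ : Nonempty (Sylow p G) := inferInstance
  obtain ⟨H, hH⟩ := exists_right_complement'_of_coprime P.card_coprime_index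
  by_cases hH1 : H = ⊥
  · have hP : (P : Subgroup G) = ⊤ := by have := hH.sup_eq_top; rwa [hH1, sup_bot_eq] at this
    obtain ⟨Q, hQ⟩ := (P.isPGroup'.map (MulAction.toPermHom G Ω)).exists_le_sylow
    have := card_le_of_le hQ
    rw [card_map_of_injective hi, hP, card_top, card_sylow, hn] at this
    exact this.trans (p_le_g n)
  have hP1 : (P : Subgroup G) ≠ ⊥ := P.ne_bot_of_dvd_card hpd
  have hcop : (Nat.card P).Coprime (Nat.card H) := hH.symm.index_eq_card ▸ P.card_coprime_index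
  have hcm : ∀ a ∈ (P : Subgroup G), ∀ b ∈ H, Commute a b := fun a ha b hb =>
    H1.commute_of_coprime_of_nilpotent (L := ⊤) inferInstance trivial trivial
      ((hcop.coprime_dvd_left (Subgroup.orderOf_dvd_natCard _ ha)).coprime_dvd_right (Subgroup.orderOf_dvd_natCard _ hb))
  have hdec : ∀ x : G, ∃ a ∈ (P : Subgroup G), ∃ b ∈ H, a * b = x := fun x => by
    obtain ⟨⟨a, b⟩, h, -⟩ := hH.existsUnique x
    exact ⟨a, a.2, b, b.2, h⟩
  have key : ∀ A B : Subgroup G, (∀ a ∈ A, ∀ b ∈ B, Commute a b) → (∀ x : G, ∃ a ∈ A, ∃ b ∈ B, a * b = x) →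
      ∀ a : A, (∀ y : MulAction.orbit A ω, a • y = y) → a = 1 := by
    intro A B h1 h2 a ha
    refine Subtype.ext (hf a fun y => ?_)
    obtain ⟨x, rfl⟩ := htr y
    obtain ⟨c, hc, d, hd, rfl⟩ := h2 x
    have h3 : (a : G) • c • ω = c • ω := congrArg Subtype.val (ha ⟨c • ω, ⟨c, hc⟩, rfl⟩)
    rw [(h1 c hc d hd).eq, mul_smul, ← mul_smul, (h1 a a.2 d hd).eq, mul_smul, h3]
  have k1 := key P H hcm hdec
  have k2 := key H P (fun a ha b hb => (hcm b hb a ha).symm) fun x => by
    obtain ⟨a, ha, b, hb, rfl⟩ := hdec x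
    exact ⟨b, hb, a, ha, (hcm a ha b hb).eq.symm⟩
  have two : ∀ A : Subgroup G, A ≠ ⊥ → (∀ a : A, (∀ y : MulAction.orbit A ω, a • y = y) → a = 1) →
      2 ≤ Nat.card (MulAction.orbit A ω) := by
    intro A h1 h2
    obtain ⟨a, ha⟩ := ne_bot_iff_exists_ne_one.1 h1
    rw [show 2 = 1 + 1 from rfl, Nat.succ_le_iff, Finite.one_lt_card_iff_nontrivial]
    by_contra h
    haveI := not_nontrivial_iff_subsingleton.1 h
    exact ha (h2 a fun y => Subsingleton.elim _ _)
  have a1 := two P hP1 k1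
  have a2 := two H hH1 k2
  have hmul : Nat.card (MulAction.orbit (P : Subgroup G) ω) * Nat.card (MulAction.orbit H ω) ≤ n := by
    choose f hf' using fun y : MulAction.orbit H ω => y.2
    rw [← Nat.card_prod, ← hn]
    refine Nat.card_le_card_of_injective (fun v => (f v.2 : G) • (v.1 : Ω)) ?_
    rintro ⟨⟨_, a, rfl⟩, y⟩ ⟨⟨_, a', rfl⟩, y'⟩ h
    change (f y : G) • (a : G) • ω = (f y' : G) • (a' : G) • ω at h
    have c1 : Commute ((a' : G)⁻¹ * a) ((f y' : G)⁻¹ * f y) := hcm _ (a'⁻¹ * a).2 _ ((f y')⁻¹ * f y).2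
    have c2 : Commute (a : G) ((f y' : G)⁻¹ * f y) := hcm _ a.2 _ ((f y')⁻¹ * f y).2
    have h1 : (((a' : G)⁻¹ * a) * ((f y' : G)⁻¹ * f y)) • ω = ω := by
      rw [mul_assoc, c2.eq]
      simp only [mul_smul, h, inv_smul_smul]
    have hco : (orderOf ((f y' : G)⁻¹ * f y)).Coprime (orderOf ((a' : G)⁻¹ * a)) :=
      (hcop.symm.coprime_dvd_left (orderOf_dvd_natCard H ((f y')⁻¹ * f y).2)).coprime_dvd_right
        (orderOf_dvd_natCard _ (a'⁻¹ * a).2)
    obtain ⟨k, hk⟩ := exists_pow_eq_self_of_coprime hco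
    have h2 : ((a' : G)⁻¹ * a) • ω = ω := by
      have := pow_mem (pow_mem (MulAction.mem_stabilizer_iff.2 h1) (orderOf ((f y' : G)⁻¹ * f y))) k
      rwa [c1.mul_pow, pow_orderOf_eq_one, mul_one, hk] at this
    rw [c1.eq, mul_smul, h2, mul_smul, inv_smul_eq_iff] at h1
    rw [mul_smul, inv_smul_eq_iff] at h2
    exact Prod.ext (Subtype.ext h2) (Subtype.ext ((hf' y).symm.trans (h1.trans (hf' y'))))
  rw [← hH.card_mul]
  refine (Nat.mul_le_mul (ih _ (by nlinarith) P _ rfl k1) (ih _ (by nlinarith) H _ rfl k2)).trans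
    ((g_add _ _).trans (g_mono (by nlinarith)))

theorem bound' {n : ℕ} (N : Subgroup (Equiv.Perm (Fin n))) (hN : Group.IsNilpotent N) : Nat.card N ≤ g n :=
  bound n N (Fin n) (Nat.card_fin n) fun _ hx => Subtype.ext (Equiv.ext hx)

end CZ.Nil
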