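import Cfsg.Agent.CZ.Nil
import Cfsg.Agent.H9.Syl
import Cfsg.Agent.H1.SylowIn

/-! Orders of nilpotent permutation groups of odd order; nilpotent subgroups of alternating groups. -/

set_option autoImplicit false

namespace CZ.Nil

open Subgroup Nat Pointwise

/-- a bound for the order of a nilpotent subgroup of odd order of `Sym(n)` -/
def o (n : ℕ) : ℕ := if n < 16 then [1, 1, 1, 3, 3, 5, 9, 9, 15, 81, 81, 81, 243, 243, 405, 729].getD n 1
  else 3 ^ ((n - 1) / 2)

theorem o_small : ∀ n < 16, 0 < o n ∧ o n ≤ 3 ^ ((n - 1) / 2) := by decide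

theorem o_big {n : ℕ} (h : 16 ≤ n) : o n = 3 ^ ((n - 1) / 2) := if_neg (by omega)

theorem o_pos (n : ℕ) : 0 < o n := by
  by_cases h : n < 16
  · exact (o_small n h).1
  · rw [o_big (by omega)]; positivity

theorem o_le (n : ℕ) : o n ≤ 3 ^ ((n - 1) / 2) := by
  by_cases h : n < 16
  · exact (o_small n h).2
  · rw [o_big (by omega)]

theorem o_add (a b : ℕ) : o a * o b ≤ o (a + b) := by
  by_cases h : a + b < 16
  · have key : ∀ a < 16, ∀ b < 16, a + b < 16 → o a * o b ≤ o (a + b) := by decide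
    exact key a (by omega) b (by omega) h
  · rw [o_big (n := a + b) (by omega)]
    refine (Nat.mul_le_mul (o_le a) (o_le b)).trans ?_
    rw [← pow_add]
    exact Nat.pow_le_pow_right (by norm_num) (by omega)

theorem o_mono {a b : ℕ} (h : a ≤ b) : o a ≤ o b := by
  obtain ⟨c, rfl⟩ := Nat.exists_eq_add_of_le h
  exact (Nat.le_mul_of_pos_right _ (o_pos c)).trans (o_add a c)

theorem vp (p : ℕ) [hp : Fact p.Prime] (n : ℕ) : padicValNat p n ! = n / p + padicValNat p (n / p)! := by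
  conv_lhs => rw [← Nat.div_add_mod n p, padicValNat_factorial_mul_add _ (Nat.mod_lt n hp.out.pos),
    padicValNat_factorial_mul, add_comm]

theorem p_le_o {p : ℕ} [hp : Fact p.Prime] (h2 : p ≠ 2) (n : ℕ) : p ^ padicValNat p n ! ≤ o n := by
  have h3 : 3 ≤ p := by have := hp.out.two_le; omega
  obtain ⟨k, hk⟩ := hp.out.odd_of_ne_two h2
  by_cases h : n < 16
  · have h0 : n / p / p / p = 0 := by
      rw [Nat.div_div_eq_div_mul, Nat.div_div_eq_div_mul]
      exact Nat.div_eq_of_lt (by nlinarith [Nat.mul_le_mul h3 h3])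
    rw [vp, vp p (n / p), vp p (n / p / p), h0, factorial_zero, padicValNat_one_right]
    by_cases h4 : p < 16
    · have key : ∀ p < 16, p.Prime → p ≠ 2 → ∀ n < 16, p ^ (n / p + (n / p / p + (0 + 0))) ≤ o n := by decide +kernel
      exact key p h4 hp.out h2 n h
    · rw [Nat.div_eq_of_lt (show n < p by omega)]
      simpa using Nat.succ_le_of_lt (o_pos n)
  · rw [o_big (by omega)]
    have h1 := sub_one_mul_padicValNat_factorial_lt_of_ne_zero p (n := n) (by omega)
    have h5 : ∀ k : ℕ, 2 * k + 1 ≤ 3 ^ k := fun k => by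
      induction k with
      | zero => simp
      | succ k ih => rw [pow_succ]; omega
    refine (Nat.pow_le_pow_left (hk ▸ h5 k : p ≤ 3 ^ k) _).trans ?_
    rw [← pow_mul]
    refine Nat.pow_le_pow_right (by norm_num) ?_
    rw [show p - 1 = 2 * k by omega, mul_assoc] at h1
    omega

theorem boundO (n : ℕ) : ∀ (G : Type) [Group G] [Finite G] [Group.IsNilpotent G] (Ω : Type) [Finite Ω] [MulAction G Ω],
    Nat.card Ω = n → ¬ 2 ∣ Nat.card G → (∀ x : G, (∀ ω : Ω, x • ω = ω) → x = 1) → Nat.card G ≤ o n := by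
  induction n using Nat.strong_induction_on with
  | _ n ih =>
  intro G _ _ _ Ω _ _ hn hodd hf
  have hi : Function.Injective (MulAction.toPermHom G Ω) :=
    (injective_iff_map_eq_one _).2 fun x hx => hf x fun ω => congrArg (fun σ : Equiv.Perm Ω => σ ω) hx
  have ih' : ∀ (X : Type) [Finite X] [MulAction G X], Nat.card X < n →
      Nat.card (MulAction.toPermHom G X).range ≤ o (Nat.card X) := fun X _ _ hX => by
    haveI := nilpotent_of_surjective _ (MulAction.toPermHom G X).rangeRestrict_surjective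
    exact ih _ hX _ X rfl (fun h => hodd (h.trans (card_range_dvd _))) fun x hx => Subtype.ext (Equiv.ext hx)
  rcases subsingleton_or_nontrivial G with hG | hG
  · rw [Nat.card_of_subsingleton (1 : G)]; exact o_pos n
  obtain ⟨x0, hx0⟩ := exists_ne (1 : G)
  obtain ⟨ω, hω⟩ : ∃ ω : Ω, x0 • ω ≠ ω := by by_contra! h; exact hx0 (hf x0 h)
  by_cases htr : ∀ y : Ω, ∃ x : G, x • ω = y
  swap
  · push Not at htr
    obtain ⟨y, hy⟩ := htr
    let O : SubMulAction G Ω := ⟨MulAction.orbit G ω, fun c _ h => MulAction.mem_orbit_of_mem_orbit c h⟩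
    have hc : Nat.card O + Nat.card ↥(Oᶜ) = n := by
      rw [← hn]; exact Set.ncard_add_ncard_compl (O : Set Ω)
    haveI : Nonempty O := ⟨⟨ω, MulAction.mem_orbit_self ω⟩⟩
    haveI : Nonempty ↥(Oᶜ) := ⟨⟨y, fun ⟨x, h⟩ => hy x h⟩⟩
    have h1 : 0 < Nat.card O := Nat.card_pos
    have h2 : 0 < Nat.card ↥(Oᶜ) := Nat.card_pos
    have h3 := Nat.card_le_card_of_injective
      ((MulAction.toPermHom G O).rangeRestrict.prod (MulAction.toPermHom G ↥(Oᶜ)).rangeRestrict)
      ((injective_iff_map_eq_one _).2 fun x hx => hf x fun a => by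
        by_cases ha : a ∈ O
        · exact congrArg (fun σ => ((σ.1.1 ⟨a, ha⟩ : O) : Ω)) hx
        · exact congrArg (fun σ => ((σ.2.1 ⟨a, ha⟩ : ↥(Oᶜ)) : Ω)) hx)
    rw [Nat.card_prod] at h3
    exact h3.trans ((Nat.mul_le_mul (ih' O (by omega)) (ih' _ (by omega))).trans (hc ▸ o_add _ _))
  obtain ⟨p, hp, hpd⟩ := Nat.exists_prime_and_dvd (Finite.one_lt_card (α := G)).ne'
  haveI := Fact.mk hp
  obtain ⟨P⟩ : Nonempty (Sylow p G) := inferInstance
  obtain ⟨H, hH⟩ := exists_right_complement'_of_coprime P.card_coprime_index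
  by_cases hH1 : H = ⊥
  · have hP : (P : Subgroup G) = ⊤ := by have := hH.sup_eq_top; rwa [hH1, sup_bot_eq] at this
    obtain ⟨Q, hQ⟩ := (P.isPGroup'.map (MulAction.toPermHom G Ω)).exists_le_sylow
    have := card_le_of_le hQ
    rw [card_map_of_injective hi, hP, card_top, card_sylow, hn] at this
    exact this.trans (p_le_o (by rintro rfl; exact hodd hpd) n)
  have hP1 : (P : Subgroup G) ≠ ⊥ := P.ne_bot_of_dvd_card hpd
  have hcop : (Nat.card P).Coprime (Nat.card H) := hH.symm.index_eq_card ▸ P.card_coprime_index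
  have hcm : ∀ a ∈ (P : Subgroup G), ∀ b ∈ H, Commute a b := fun a ha b hb =>
    H1.commute_of_coprime_of_nilpotent (L := ⊤) inferInstance trivial trivial
      ((hcop.coprime_dvd_left (Subgroup.orderOf_dvd_natCard _ ha)).coprime_dvd_right (Subgroup.orderOf_dvd_natCard _ hb))
  have hdec : ∀ x : G, ∃ a ∈ (P : Subgroup G), ∃ b ∈ H, a * b = x := fun x => by
    obtain ⟨⟨a, b⟩, h, -⟩ := hH.existsUnique x
    exact ⟨a, a.2, b, b.2, h⟩
  have key : ∀ A B : Subgroup G, (∀ a ∈ A, ∀ b ∈ B, Commute a b) → (∀ x : G, ∃ a ∈ A, ∃ b ∈ B, a * b = x) →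
      ∀ a : A, (∀ y : MulAction.orbit A ω, a • y = y) → a = 1 := by
    intro A B h1 h2 a ha
    refine Subtype.ext (hf a fun y => ?_)
    obtain ⟨x, rfl⟩ := htr y
    obtain ⟨c, hc, d, hd, rfl⟩ := h2 x
    have h3 : (a : G) • c • ω = c • ω := congrArg Subtype.val (ha ⟨c • ω, ⟨c, hc⟩, rfl⟩)
    rw [(h1 c hc d hd).eq, mul_smul, ← mul_smul, (h1 a a.2 d hd).eq, mul_smul, h3]
  have k1 := key P H hcm hdec
  have k2 := key H P (fun a ha b hb => (hcm b hb a ha).symm) fun x => by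
    obtain ⟨a, ha, b, hb, rfl⟩ := hdec x
    exact ⟨b, hb, a, ha, (hcm a ha b hb).eq.symm⟩
  have two : ∀ A : Subgroup G, A ≠ ⊥ → (∀ a : A, (∀ y : MulAction.orbit A ω, a • y = y) → a = 1) →
      2 ≤ Nat.card (MulAction.orbit A ω) := by
    intro A h1 h2
    obtain ⟨a, ha⟩ := ne_bot_iff_exists_ne_one.1 h1
    rw [show 2 = 1 + 1 from rfl, Nat.succ_le_iff, Finite.one_lt_card_iff_nontrivial]
    by_contra h
    haveI := not_nontrivial_iff_subsingleton.1 h
    exact ha (h2 a fun y => Subsingleton.elim _ _)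
  have a1 := two P hP1 k1
  have a2 := two H hH1 k2
  have hmul : Nat.card (MulAction.orbit (P : Subgroup G) ω) * Nat.card (MulAction.orbit H ω) ≤ n := by
    choose f hf' using fun y : MulAction.orbit H ω => y.2
    rw [← Nat.card_prod, ← hn]
    refine Nat.card_le_card_of_injective (fun v => (f v.2 : G) • (v.1 : Ω)) ?_
    rintro ⟨⟨_, a, rfl⟩, y⟩ ⟨⟨_, a', rfl⟩, y'⟩ h
    change (f y : G) • (a : G) • ω = (f y' : G) • (a' : G) • ω at h
    have c1 : Commute ((a' : G)⁻¹ * a) ((f y' : G)⁻¹ * f y) := hcm _ (a'⁻¹ * a).2 _ ((f y')⁻¹ * f y).2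
    have c2 : Commute (a : G) ((f y' : G)⁻¹ * f y) := hcm _ a.2 _ ((f y')⁻¹ * f y).2
    have h1 : (((a' : G)⁻¹ * a) * ((f y' : G)⁻¹ * f y)) • ω = ω := by
      rw [mul_assoc, c2.eq]
      simp only [mul_smul, h, inv_smul_smul]
    have hco : (orderOf ((f y' : G)⁻¹ * f y)).Coprime (orderOf ((a' : G)⁻¹ * a)) :=
      (hcop.symm.coprime_dvd_left (orderOf_dvd_natCard H ((f y')⁻¹ * f y).2)).coprime_dvd_right
        (orderOf_dvd_natCard _ (a'⁻¹ * a).2)
    obtain ⟨k, hk⟩ := exists_pow_eq_self_of_coprime hco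
    have h2 : ((a' : G)⁻¹ * a) • ω = ω := by
      have := pow_mem (pow_mem (MulAction.mem_stabilizer_iff.2 h1) (orderOf ((f y' : G)⁻¹ * f y))) k
      rwa [c1.mul_pow, pow_orderOf_eq_one, mul_one, hk] at this
    rw [c1.eq, mul_smul, h2, mul_smul, inv_smul_eq_iff] at h1
    rw [mul_smul, inv_smul_eq_iff] at h2
    exact Prod.ext (Subtype.ext h2) (Subtype.ext ((hf' y).symm.trans (h1.trans (hf' y'))))
  rw [← hH.card_mul]
  refine (Nat.mul_le_mul (ih _ (by nlinarith) P _ rfl (fun h => hodd (h.trans (card_subgroup_dvd_card _))) k1) (ih _ (by nlinarith) H _ rfl (fun h => hodd (h.trans (card_subgroup_dvd_card _))) k2)).trans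
    ((o_add _ _).trans (o_mono (by nlinarith)))

theorem o_lt (n : ℕ) (h : 16 ≤ n) : 2 * 3 ^ ((n - 1) / 2) < g n := by
  induction n using Nat.strong_induction_on with
  | _ n ih =>
    by_cases h1 : n ≤ 23
    · refine lt_of_lt_of_le ?_ (g_low n)
      interval_cases n <;> norm_num
    · have h2 := ih (n - 8) (by omega) (by omega)
      have h3 := g_add (n - 8) 8
      have h4 : 128 ≤ g 8 := le_trans (by norm_num) (g_low 8)
      rw [show n - 8 + 8 = n by omega] at h3
      rw [show (n - 1) / 2 = (n - 8 - 1) / 2 + 4 by omega, pow_add]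
      nlinarith [Nat.mul_le_mul h2 h4]

theorem o_lt' (n : ℕ) (h : n = 4 ∨ 7 ≤ n) (h9 : n ≠ 9) : 2 * o n < g n := by
  by_cases h1 : n < 16
  · refine lt_of_lt_of_le ?_ (g_low n)
    rcases h with rfl | h
    · decide
    · interval_cases n <;> first | decide | omega
  · rw [o_big (by omega)]; exact o_lt n (by omega)

theorem odd_elt {Ω : Type} [Fintype Ω] [DecidableEq Ω] {H : Subgroup (Equiv.Perm Ω)} (hH : ¬ 2 ∣ Nat.card H)
    {x : Equiv.Perm Ω} (hx : x * x = 1) (h1 : x ≠ 1) (hc : ∀ h ∈ H, h * x = x * h) :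
    ∃ σ ∈ centralizer (H : Set (Equiv.Perm Ω)), σ ^ 2 = 1 ∧ Equiv.Perm.sign σ = -1 := by
  classical
  obtain ⟨ω, hω⟩ : ∃ ω, x ω ≠ ω := by by_contra! h; exact h1 (Equiv.ext h)
  have hxx : ∀ y, x (x y) = y := fun y => congrArg (fun f : Equiv.Perm Ω => f y) hx
  have hcx : ∀ h ∈ H, ∀ y, h (x y) = x (h y) := fun h hh y => congrArg (fun f : Equiv.Perm Ω => f y) (hc h hh)
  let O : Finset Ω := Finset.univ.filter fun y => ∃ h ∈ H, h ω = y
  have mO : ∀ y, y ∈ O ↔ ∃ h ∈ H, h ω = y := fun y => by simp [O]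
  have hO : ∀ h ∈ H, ∀ y, h y ∈ O ↔ y ∈ O := fun h hh y => by
    rw [mO, mO]
    exact ⟨fun ⟨k, hk, e⟩ => ⟨h⁻¹ * k, mul_mem (inv_mem hh) hk, by simp [e]⟩,
      fun ⟨k, hk, e⟩ => ⟨h * k, mul_mem hh hk, by simp [e]⟩⟩
  have hxO : ∀ y ∈ O, x y ∉ O := by
    intro y hy hy'
    obtain ⟨a, ha, rfl⟩ := (mO _).1 hy
    rw [← hcx a ha, hO a ha] at hy'
    obtain ⟨k, hk, e⟩ := (mO _).1 hy'
    have h2 : (k ^ 2) • ω = ω := by
      change k (k ω) = ω
      rw [e, hcx k hk, e, hxx]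
    have hco : Nat.Coprime 2 (orderOf k) :=
      (Nat.prime_two.coprime_iff_not_dvd).2 fun h => hH (h.trans (Subgroup.orderOf_dvd_natCard H hk))
    obtain ⟨m, hm⟩ := exists_pow_eq_self_of_coprime hco
    have := pow_mem (MulAction.mem_stabilizer_iff.2 h2) m
    rw [hm] at this
    exact hω (e.symm.trans this)
  have hodd : Odd O.card := by
    have h2 : O.card = (MulAction.stabilizer H ω).index := by
      rw [MulAction.index_stabilizer, ← Set.ncard_coe_finset]
      congr 1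
      ext y
      rw [Finset.mem_coe, mO]
      exact ⟨fun ⟨h, hh, e⟩ => ⟨⟨h, hh⟩, e⟩, fun ⟨h, e⟩ => ⟨h, h.2, e⟩⟩
    rw [h2, ← Nat.not_even_iff_odd, even_iff_two_dvd]
    exact fun h => hH (h.trans (index_dvd_card _))
  let s : Ω → Ω := fun y => if y ∈ O ∨ x y ∈ O then x y else y
  have hs : Function.Involutive s := fun y => by
    by_cases h : y ∈ O ∨ x y ∈ O
    · simp only [s, if_pos h, hxx, if_pos h.symm]
    · simp only [s, if_neg h]
  have hs2 : hs.toPerm s ^ 2 = 1 := Equiv.ext hs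
  refine ⟨hs.toPerm s, fun h hh => Equiv.ext fun y => ?_, hs2, ?_⟩
  · change h (s y) = s (h y)
    simp only [s, ← hcx h hh, hO h hh]
    split_ifs <;> rfl
  · have h3 : (hs.toPerm s).support = O ∪ O.image x := by
      ext y
      rw [Equiv.Perm.mem_support, Finset.mem_union, Finset.mem_image]
      change s y ≠ y ↔ _
      have h4 : (∃ a ∈ O, x a = y) ↔ x y ∈ O := ⟨fun ⟨a, ha, e⟩ => by rw [← e, hxx]; exact ha, fun h => ⟨_, h, hxx y⟩⟩
      rw [h4]
      by_cases h : y ∈ O ∨ x y ∈ O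
      · simp only [s, if_pos h, h, iff_true]
        intro e
        rcases h with h | h
        · exact hxO y h (e.symm ▸ h)
        · exact hxO _ h (by rw [hxx, ← e]; exact h)
      · simp only [s, if_neg h, h, ne_eq, not_true]
    have h5 : (hs.toPerm s).support.card = 2 * O.card := by
      rw [h3, Finset.card_union_of_disjoint, Finset.card_image_of_injective _ x.injective, two_mul]
      rw [Finset.disjoint_right]
      intro y hy
      obtain ⟨a, ha, rfl⟩ := Finset.mem_image.1 hy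
      exact hxO a ha
    rw [Equiv.Perm.sign_of_pow_two_eq_one hs2, Equiv.Perm.card_fixedPoints, Equiv.Perm.sum_cycleType,
      Nat.sub_sub_self (Finset.card_le_univ _), h5, Nat.mul_div_cancel_left _ two_pos, hodd.neg_one_pow]

theorem ext_odd {n : ℕ} {N : Subgroup (Equiv.Perm (Fin n))} (hN : Group.IsNilpotent N) (h2 : 2 ∣ Nat.card N) :
    ∃ M : Subgroup (Equiv.Perm (Fin n)), Group.IsNilpotent M ∧ N ≤ M ∧ ∃ σ ∈ M, Equiv.Perm.sign σ = -1 := by
  have hH : ¬ 2 ∣ Nat.card (H9.Op' 2 N) := (Nat.prime_two.coprime_iff_not_dvd).1 (H9.Op'_cop 2 N).symm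
  have hcm : ∀ x ∈ N, (∃ k, x ^ 2 ^ k = 1) → ∀ h ∈ H9.Op' 2 N, h * x = x * h := by
    rintro x hx ⟨k, hk⟩ h hh
    exact H1.commute_of_coprime_of_nilpotent hN (H9.Op'_le 2 N hh) hx
      ((((H9.Op'_cop 2 N).coprime_dvd_left (Subgroup.orderOf_dvd_natCard _ hh)).pow_right k).coprime_dvd_right
        (orderOf_dvd_of_pow_eq_one hk))
  obtain ⟨⟨x, hxN⟩, hx⟩ := exists_prime_orderOf_dvd_card' (G := N) 2 h2
  rw [Subgroup.orderOf_mk] at hx
  have hx2 : x ^ 2 = 1 := hx ▸ pow_orderOf_eq_one x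
  obtain ⟨σ, h1, h3, h4⟩ := odd_elt hH (pow_two x ▸ hx2) (by rintro rfl; simp at hx) (hcm x hxN ⟨1, hx2⟩)
  obtain ⟨S, hS, hPS⟩ := H1.exists_isSylowIn_ge (H9.Op_p 2 N) (L := centralizer (H9.Op' 2 N : Set _)) fun y hy => by
    obtain ⟨k, hk⟩ := H9.Op_p 2 N ⟨y, hy⟩
    exact hcm y (H9.Op_le 2 N hy) ⟨k, congrArg Subtype.val hk⟩
  obtain ⟨u, -, hu⟩ := hS.exists_conj_le (U := zpowers σ) (by
    rintro ⟨_, k, rfl⟩
    refine ⟨1, Subtype.ext ?_⟩
    rw [coe_pow, coe_one, pow_one, ← zpow_natCast, ← zpow_mul, mul_comm, zpow_mul, zpow_natCast, h3, one_zpow])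
    (zpowers_le.2 h1)
  refine ⟨S ⊔ H9.Op' 2 N, H9.nilpotent_sup hS.isPGroup.isNilpotent ?_ (hS.le.trans (centralizer_le_normalizer _))
    ((le_centralizer_iff.1 hS.le).trans (centralizer_le_normalizer _)), ?_, u * σ * u⁻¹,
    mem_sup_left (hu (smul_mem_pointwise_smul _ _ _ (mem_zpowers σ))), by simp [h4]⟩
  · exact nilpotent_of_mulEquiv (subgroupOfEquivOfLe (H9.Op'_le 2 N))
  · rw [← H9.nilpotent_eq_Op_sup_Op' (p := 2) hN]
    exact sup_le (by rw [H9.nilpotent_eq_Op_sup_Op' hN]; exact hPS.trans le_sup_left)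
      (by rw [H9.nilpotent_eq_Op_sup_Op' hN]; exact le_sup_right)

theorem two_mul_inf {n : ℕ} {M : Subgroup (Equiv.Perm (Fin n))} {σ : Equiv.Perm (Fin n)} (h : σ ∈ M)
    (h1 : Equiv.Perm.sign σ = -1) : 2 * Nat.card (M ⊓ alternatingGroup (Fin n) : Subgroup _) = Nat.card M := by
  have h2 := ((alternatingGroup (Fin n)).subgroupOf M).card_mul_index
  have h3 : ((alternatingGroup (Fin n)).subgroupOf M).index = 2 := by
    rw [index_eq_two_iff]
    refine ⟨⟨σ, h⟩, fun b => ?_⟩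
    simp only [mem_subgroupOf, Equiv.Perm.mem_alternatingGroup, coe_mul, map_mul, h1]
    rcases Int.units_eq_one_or (Equiv.Perm.sign (b : Equiv.Perm (Fin n))) with e | e <;> simp [e]
  rw [h3, ← inf_subgroupOf_right, Nat.card_congr (subgroupOfEquivOfLe inf_le_right).toEquiv, inf_comm] at h2
  omega

theorem alt_even {n : ℕ} (N : Subgroup (alternatingGroup (Fin n))) (hN : Group.IsNilpotent N) (h2 : 2 ∣ Nat.card N) :
    ∃ M : Subgroup (Equiv.Perm (Fin n)), Group.IsNilpotent M ∧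
      N.map (alternatingGroup (Fin n)).subtype ≤ M ⊓ alternatingGroup (Fin n) ∧ ∃ σ ∈ M, Equiv.Perm.sign σ = -1 := by
  obtain ⟨M, h1, h3, h4⟩ := ext_odd (N := N.map (alternatingGroup (Fin n)).subtype)
    (nilpotent_of_mulEquiv (N.equivMapOfInjective _ Subtype.val_injective))
    (by rwa [card_map_of_injective Subtype.val_injective])
  exact ⟨M, h1, le_inf h3 (map_subtype_le _), h4⟩

theorem alt_odd {n : ℕ} (N : Subgroup (alternatingGroup (Fin n))) (hN : Group.IsNilpotent N) (h2 : ¬ 2 ∣ Nat.card N) :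
    Nat.card N ≤ o n :=
  boundO n N (Fin n) (Nat.card_fin n) h2 fun _ hx => Subtype.ext (Subtype.ext (Equiv.ext hx))

theorem alt_bound {n : ℕ} (N : Subgroup (alternatingGroup (Fin n))) (hN : Group.IsNilpotent N) (h2 : 2 ∣ Nat.card N) :
    2 * Nat.card N ≤ g n := by
  obtain ⟨M, h1, h3, σ, h4, h5⟩ := alt_even N hN h2
  have := card_le_of_le h3
  rw [card_map_of_injective Subtype.val_injective] at this
  have := two_mul_inf h4 h5
  have := bound' M h1
  omega

theorem card_sylow_alt {n : ℕ} (hn : 2 ≤ n) (P : Sylow 2 (alternatingGroup (Fin n))) :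
    2 * Nat.card P = 2 ^ padicValNat 2 n ! := by
  haveI : Nontrivial (Fin n) := Fin.nontrivial_iff_two_le.2 hn
  have := two_mul_nat_card_alternatingGroup (α := Fin n)
  rw [Nat.card_perm, Nat.card_fin] at this
  rw [Sylow.card_eq_multiplicity, Nat.factorization_def _ Nat.prime_two, ← this,
    padicValNat.mul two_ne_zero Nat.card_pos.ne', padicValNat_self, pow_add, pow_one]

end CZ.Nil
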