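import Cfsg.Agent.S2257
import Cfsg.Agent.H5.SL2X

set_option autoImplicit false

namespace CZ.Sol3
open H5 Subgroup MulAction OnePoint Cfsg.Agent.S2257 Cfsg.Agent

section
variable {G G' : Type*} [Group G] [Group G']

theorem sol_map (f : G →* G') (hf : Function.Injective f) {x y : G} : f y ∈ Sol (f x) ↔ y ∈ Sol x := by
  have h : closure ({f x, f y} : Set G') = (closure ({x, y} : Set G)).map f := by
    rw [MonoidHom.map_closure, Set.image_pair]
  change Group.IsSolvable _ ↔ Group.IsSolvable _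
  rw [h]
  exact ⟨isSolvable_of_equiv (equivMapOfInjective _ f hf), isSolvable_of_equiv (equivMapOfInjective _ f hf).symm⟩

theorem com {x y : G} (h : x * y = y * x) : y ∈ Sol x := by
  have : IsMulCommutative (closure ({x, y} : Set G)) := isMulCommutative_closure (by
    rintro a (rfl | rfl) b (rfl | rfl) <;> simp [h])
  exact Group.isSolvable_of_comm fun a b => mul_comm' a b

theorem dih [Finite G] {x y : G} (hx : orderOf x = 2) (hy : y ^ 2 = 1) : y ∈ Sol x := by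
  by_cases h1 : y = 1
  · exact com (by simp [h1])
  by_cases h2 : x = y
  · exact com (by rw [h2])
  obtain ⟨e⟩ := S0206.result x y hx (orderOf_eq_prime hy h1) h2
  exact isSolvable_of_equiv e (dihS _)

theorem tri {x y : G} (hx : x ^ 2 = 1) (hy : y ^ 3 = 1) (h : (x * y) ^ 3 = 1) (h1 : x ≠ 1) : y ∈ Sol x := by
  obtain ⟨e⟩ := triA4 hx hy h h1
  exact isSolvable_of_equiv e isSolvable_A4

theorem sol_symm {x y : G} (h : y ∈ Sol x) : x ∈ Sol y := by
  change Group.IsSolvable _ at h ⊢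
  rwa [Set.pair_comm]

theorem sol_mul {x u : G} (h : u ∈ Sol x) (i : ℕ) : x ^ i * u ∈ Sol x :=
  sol_of_le h (subset_closure (by simp)) (mul_mem (pow_mem (subset_closure (by simp)) _) (subset_closure (by simp)))

theorem sp_conj (P : Subgroup G) [hP : P.Normal] (c x : G) : (Sol (c * x * c⁻¹) ∩ P).ncard = (Sol x ∩ P).ncard := by
  rw [← Set.ncard_image_of_injective (Sol x ∩ P) (MulAut.conj c).injective]
  congr 1
  ext y
  obtain ⟨y, rfl⟩ := (MulAut.conj c).surjective y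
  rw [(MulAut.conj c).injective.mem_set_image]
  exact and_congr (sol_map (MulAut.conj c).toMonoidHom (MulAut.conj c).injective)
    ⟨fun h => by simpa [mul_assoc] using hP.conj_mem _ h c⁻¹, fun h => hP.conj_mem _ h c⟩
end

theorem fa : ∀ a : A4, a ^ 2 = 1 ∨ a ^ 3 = 1 := by decide +kernel
theorem fb : ∀ a b : A4, a ^ 2 = 1 → a ≠ 1 → b ^ 2 = 1 ∨ (b ^ 3 = 1 ∧ (a * b) ^ 3 = 1) := by decide +kernel
theorem fc : ∀ a b : A4, a ^ 3 = 1 → a ≠ 1 → a * b = b * a ∨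
    ∃ i : Fin 3, (a ^ (3 - i.1) * b) ^ 2 = 1 ∧ (a * (a ^ (3 - i.1) * b)) ^ 3 = 1 := by decide +kernel

theorem fib {A B : Type*} [Finite A] [Finite B] (P : Set A) (R : A → Set B) (n : ℕ) (h : ∀ a ∈ P, (R a).ncard = n) :
    {z : A × B | z.1 ∈ P ∧ z.2 ∈ R z.1}.ncard = P.ncard * n := by
  have := Fintype.ofFinite P
  have e : {z : A × B | z.1 ∈ P ∧ z.2 ∈ R z.1} ≃ Σ a : P, R a :=
    ⟨fun z => ⟨⟨z.1.1, z.2.1⟩, ⟨z.1.2, z.2.2⟩⟩, fun s => ⟨(s.1.1, s.2.1), s.1.2, s.2.2⟩, fun _ => rfl, fun _ => rfl⟩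
  rw [← Nat.card_coe_set_eq, Nat.card_congr e, Nat.card_sigma,
    Finset.sum_congr rfl fun (a : P) _ => (Nat.card_coe_set_eq _).trans (h a a.2), Finset.sum_const, Finset.card_univ,
    ← Nat.card_eq_fintype_card, Nat.card_coe_set_eq, smul_eq_mul]

variable {F : Type*} [Field F] [Fintype F]

def N (k : F) : Set (F × F) := {w | w.1 ^ 2 + w.2 ^ 2 = k}

theorem N_zero (h : ¬ IsSquare (-1 : F)) {w : F × F} (hw : w ∈ N (0 : F)) : w = 0 := by
  obtain ⟨u, v⟩ := w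
  have e : u ^ 2 + v ^ 2 = 0 := hw
  have hv : v = 0 := by
    by_contra k
    exact h ⟨u / v, by field_simp; linear_combination -e⟩
  subst hv
  simpa using e

theorem N_card (h : ¬ IsSquare (-1 : F)) (h2 : (2 : F) ≠ 0) {k : F} (hk : k ≠ 0) : (N k).ncard = Fintype.card F + 1 := by
  have le : ∀ k m : F, m ≠ 0 → (N k).ncard ≤ (N (m * k)).ncard := fun k m hm => by
    obtain ⟨a, b, e⟩ := exists_binary_eq (t := (0 : F)) (d := 1) (by simpa using (four_ne_zero' h2).symm) hm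
    refine Set.ncard_le_ncard_of_injOn (fun w => (a * w.1 - b * w.2, a * w.2 + b * w.1)) (fun w hw => ?_) ?_
    · have hw : w.1 ^ 2 + w.2 ^ 2 = k := hw
      change _ + _ = _
      linear_combination (w.1 ^ 2 + w.2 ^ 2) * e + m * hw
    · rintro ⟨u, v⟩ - ⟨u', v'⟩ - h
      obtain ⟨h1, h3⟩ := Prod.ext_iff.1 h
      simp only at h1 h3
      exact Prod.ext (mul_left_cancel₀ hm (by linear_combination a * h1 + b * h3 - (u - u') * e))
        (mul_left_cancel₀ hm (by linear_combination a * h3 - b * h1 - (v - v') * e))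
  have eq : ∀ m ∈ ({0}ᶜ : Set F), (N m).ncard = (N k).ncard := fun m hm => by
    have h1 := le m (k / m) (div_ne_zero hk hm)
    have h3 := le k (m / k) (div_ne_zero hm hk)
    rw [div_mul_cancel₀ _ hm] at h1
    rw [div_mul_cancel₀ _ hk] at h3
    omega
  have h1 := fib _ N _ eq
  have h3 : {z : F × F × F | z.1 ∈ ({0}ᶜ : Set F) ∧ z.2 ∈ N z.1} = (fun w : F × F => (w.1 ^ 2 + w.2 ^ 2, w)) '' {0}ᶜ := by
    ext ⟨m, w⟩
    constructor
    · rintro ⟨k1, k2⟩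
      refine ⟨w, ?_, Prod.ext k2 rfl⟩
      rintro rfl
      exact k1 (by simpa [N] using k2.symm)
    · rintro ⟨w, hw, e⟩
      obtain ⟨rfl, rfl⟩ := Prod.ext_iff.1 e
      exact ⟨fun k => hw (N_zero h k), rfl⟩
  rw [h3, Set.ncard_image_of_injective _ (fun _ _ e => (Prod.ext_iff.1 e).2), Set.ncard_compl, Set.ncard_compl,
    Set.ncard_singleton, Set.ncard_singleton, Nat.card_prod, Nat.card_eq_fintype_card] at h1
  have hq := Fintype.one_lt_card (α := F)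
  refine Nat.eq_of_mul_eq_mul_left (show 0 < Fintype.card F - 1 by omega) ?_
  rw [← h1, mul_comm (_ - 1), ← Nat.mul_self_sub_mul_self_eq]

def Q (F : Type*) [Field F] : Set ((F × F) × F × F) :=
  {z | z.2.1 ^ 2 + z.2.2 ^ 2 = z.1.1 ^ 2 + z.1.2 ^ 2 - 1 ∧
    (z.1.1 = 0 ∨ z.1.2 = 0 ∨ (z.2.1 = 0 ∧ z.2.2 = 0) ∨ (z.1.1 ^ 2 = 1 ∧ z.1.2 ^ 2 = 1))}

theorem Q_card (h : ¬ IsSquare (-1 : F)) (h3 : (3 : F) = 0) : (Q F).ncard = 2 * (Fintype.card F * (Fintype.card F + 1)) := by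
  have h2 : (2 : F) ≠ 0 := fun e => one_ne_zero (by linear_combination h3 - e : (1 : F) = 0)
  let Z : Set (F × F) := Set.univ ×ˢ {0} ∪ {0} ×ˢ Set.univ
  have mZ : ∀ p : F × F, p ∈ Z ↔ p.1 = 0 ∨ p.2 = 0 := fun p => by simp [Z, or_comm]
  let R : Set (F × F) := {p | p.1 ^ 2 = 1 ∧ p.2 ^ 2 = 1}
  have hZ : Z.ncard + 1 = 2 * Fintype.card F := by
    have := Set.ncard_union_add_ncard_inter (Set.univ ×ˢ {0} : Set (F × F)) ({0} ×ˢ Set.univ)
    rw [Set.prod_inter_prod] at this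
    simpa [Set.ncard_prod, Set.ncard_univ, two_mul] using this
  have hR : R = (fun p : F × F => (p.1 + p.2, p.1 - p.2)) '' (Z ∩ N 1) := by
    ext ⟨a, b⟩
    constructor
    · rintro ⟨k1, k2⟩
      refine ⟨(-(a + b), -(a - b)), ⟨(mZ _).2 (mul_eq_zero.1 (by linear_combination k1 - k2)), ?_⟩, Prod.ext ?_ ?_⟩
      · change _ + _ = _
        linear_combination 2 * k1 + 2 * k2 + h3
      · change _ + _ = a
        linear_combination -a * h3
      · change _ - _ = b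
        linear_combination -b * h3
    · rintro ⟨⟨s, t⟩, ⟨k1, k2⟩, e⟩
      obtain ⟨rfl, rfl⟩ := Prod.ext_iff.1 e
      have k2 : s ^ 2 + t ^ 2 = 1 := k2
      have k3 : s * t = 0 := mul_eq_zero.2 ((mZ _).1 k1)
      exact ⟨by linear_combination k2 + 2 * k3, by linear_combination k2 - 2 * k3⟩
  have cR : R.ncard = (Z ∩ N 1).ncard := by
    rw [hR]
    refine Set.ncard_image_of_injective _ ?_
    rintro ⟨u, v⟩ ⟨u', v'⟩ h
    obtain ⟨h1, h4⟩ := Prod.ext_iff.1 h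
    simp only at h1 h4
    exact Prod.ext (mul_left_cancel₀ h2 (by linear_combination h1 + h4)) (mul_left_cancel₀ h2 (by linear_combination h1 - h4))
  have d : Disjoint (Z \ N 1) R := Set.disjoint_left.2 fun p hp k => by
    rcases (mZ p).1 hp.1 with e | e
    · simpa [e] using k.1
    · simpa [e] using k.2
  have cE : (Z \ N 1 ∪ R).ncard = Z.ncard := by
    rw [Set.ncard_union_eq d, cR, add_comm, Set.ncard_inter_add_ncard_diff_eq_ncard]
  have nE : ∀ p ∈ Z \ N 1 ∪ R, p.1 ^ 2 + p.2 ^ 2 - 1 ≠ 0 := by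
    rintro p (hp | hp) e
    · exact hp.2 (sub_eq_zero.1 e)
    · exact one_ne_zero (by linear_combination e - hp.1 - hp.2 : (1 : F) = 0)
  have e : Q F = N 1 ×ˢ {0} ∪ {z | z.1 ∈ Z \ N 1 ∪ R ∧ z.2 ∈ N (z.1.1 ^ 2 + z.1.2 ^ 2 - 1)} := by
    ext ⟨p, w⟩
    constructor
    · rintro ⟨k1, k2⟩
      by_cases a : p ∈ N (1 : F)
      · exact .inl ⟨a, N_zero h (k1.trans (sub_eq_zero.2 a))⟩
      refine .inr ⟨?_, k1⟩
      rcases k2 with k | k | ⟨k, k'⟩ | k
      · exact .inl ⟨(mZ _).2 (.inl k), a⟩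
      · exact .inl ⟨(mZ _).2 (.inr k), a⟩
      · exact absurd (sub_eq_zero.1 (by rw [← k1, k, k']; simp)) a
      · exact .inr k
    · rintro (⟨k1, rfl⟩ | ⟨k1, k2⟩)
      · exact ⟨by simpa using (sub_eq_zero.2 k1).symm, .inr (.inr (.inl ⟨rfl, rfl⟩))⟩
      · refine ⟨k2, ?_⟩
        rcases k1 with k | k
        · exact ((mZ _).1 k.1).imp_right .inl
        · exact .inr (.inr (.inr k))
  have d2 : Disjoint (N (1 : F) ×ˢ ({0} : Set (F × F))) {z | z.1 ∈ Z \ N 1 ∪ R ∧ z.2 ∈ N (z.1.1 ^ 2 + z.1.2 ^ 2 - 1)} :=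
    Set.disjoint_left.2 fun z hz k => nE _ k.1 (sub_eq_zero.2 hz.1)
  rw [e, Set.ncard_union_eq d2, fib _ (fun p : F × F => N (p.1 ^ 2 + p.2 ^ 2 - 1)) _ fun p hp => N_card h h2 (nE p hp), cE,
    Set.ncard_prod, Set.ncard_singleton, N_card h h2 one_ne_zero, ← mul_assoc, ← hZ]
  ring

end CZ.Sol3
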